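import Cfsg.Agent.H116.RatH.Burn
import Cfsg.Agent.H687.BR.ParE

/-!
# `cnt P (G ⧸ P_J) ≠ p - 1` for `E₈(q)`, `p ∤ q - 1` (helper116)
-/

set_option autoImplicit false
set_option linter.unusedSectionVars false

namespace Cfsg.Agent.H116.RatH

open Cfsg CoxeterSystem Cfsg.Agent.ChevalleyStructure.CoxeterGeom Cfsg.Agent.Tits.Roots Cfsg.Agent.Tits.Core
  Cfsg.Agent.Tits.RootComb Cfsg.Agent.Nodes.Reps Cfsg.Agent.Nodes.BNOf
  Cfsg.Agent.Nodes.StabComb Cfsg.Agent.Nodes.Bruhat Cfsg.Agent.Nodes.LeviDec Cfsg.Agent.H35.Poin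
  Cfsg.Agent.H35.ExcIdx Cfsg.Agent.H134.StrP Cfsg.Agent.ChevalleyStructure
  Cfsg.Agent.ChevalleyStructure.CoxeterGeomTypes Cfsg.Lie
open Cfsg.Agent.Nodes.RGDChev Cfsg.Agent.ChevalleyStructure.NPerm
open Cfsg.Agent.H116.RatB0 (exists_pow ne_of_cast)
open Cfsg.Agent.H145.BR (cnt)
open Cfsg.Agent.H687.BR (Pa)

universe u

theorem not_dvd_TT_E8 {K : Type u} [Field K] [Fintype K] {p : ℕ} [hp : Fact p.Prime]
    (hq : ¬ p ∣ Fintype.card K - 1) : ¬ p ∣ Nat.card ↥(TT chevE8 K) := by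
  have h1 : Nat.card (TT chevE8 K) = Nat.card (chevE8.diagonalSubgroup K) :=
    Nat.card_congr (Subgroup.subgroupOfEquivOfLe (Elts.diagonal_le_group hpE8.inList K)).toEquiv
  have h2 := Cfsg.Agent.S1035.result (F := K) rfl (chevE8, 1) (by simp)
  rw [h1]
  intro h3
  have h4 : p ∣ (Fintype.card K - 1) ^ chevE8.rank := by
    rw [← h2]
    exact h3.mul_left _
  exact hq (hp.out.dvd_of_dvd_pow h4)

/-- **`cnt P (G ⧸ P_J) ≠ p - 1`**, `E₈(q)`, `p ∤ q (q - 1)` -/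
theorem cnt_Pa_E8_ne_pred {K : Type u} [Field K] [Fintype K] {p : ℕ} [hp : Fact p.Prime] (hpK : (p : K) ≠ 0)
    (hq : ¬ p ∣ Fintype.card K - 1) (hd : p ∣ Nat.card ↥(chevE8.group K)) (P : Sylow p ↥(chevE8.group K))
    (hP : IsCyclic P) {J : Finset (Fin 8)} (hJ : ¬ p ∣ (Pa hpE8 K J).index) :
    cnt (P : Subgroup ↥(chevE8.group K)) (↥(chevE8.group K) ⧸ Pa hpE8 K J) ≠ p - 1 := by
  obtain ⟨r, f, _, hr, hf, hK⟩ := exists_pow K
  have : Fact r.Prime := ⟨hr⟩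
  have hfin := finite_W hpE8 CoxeterMatrix.E₈.toCoxeterSystem
  have R := rgd (K := K) hpE8 CoxeterMatrix.E₈.toCoxeterSystem r
  exact cnt_PJ_ne_pred R (GG_eq_top hpE8 K _) (ne_of_cast K hpK) (not_dvd_TT_E8 hq) hd P hP hJ

end Cfsg.Agent.H116.RatH
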